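import Cfsg.Agent.H611.PslTwo
import Cfsg.Agent.PLocal.QuadraticNatural
import Cfsg.Agent.ClassicalGeometry.SLTwoTrace

/-!
# The centralizer of an element of order `p` in `PSL(2, q)`, `q` a power of the odd prime `p`

`pow_eq_one_of_commute`: if `x ≠ 1`, `x ^ p = 1` and `y` commutes with `x` then `y ^ p = 1`.
-/

set_option autoImplicit false

namespace Cfsg.Agent.H89.PslCentP

open Matrix Cfsg.Agent.H611.PslTwo Cfsg.Agent.ClassicalGeometry.SLTwoTrace

variable {F : Type*} [Field F]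

/-- an element of trace `2` has `(A - 1)^2 = 0`. -/
theorem sub_one_sq {A : Matrix.SpecialLinearGroup (Fin 2) F} (hA : tr A = 2) :
    ((A : Matrix (Fin 2) (Fin 2) F) - 1) ^ 2 = 0 := by
  have h := sq_eq A
  rw [hA] at h
  have h1 : ((A : Matrix (Fin 2) (Fin 2) F) - 1) ^ 2 =
      (A : Matrix (Fin 2) (Fin 2) F) ^ 2 - (A : Matrix (Fin 2) (Fin 2) F) -
        (A : Matrix (Fin 2) (Fin 2) F) + 1 := by noncomm_ring
  rw [h1, h, two_smul, one_smul]
  abel

/-- an element of trace `2` has order dividing the characteristic -/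
theorem pow_char {p : ℕ} [Fact p.Prime] [CharP F p] {A : Matrix.SpecialLinearGroup (Fin 2) F}
    (hA : tr A = 2) : A ^ p = 1 := by
  have hp : p.Prime := Fact.out
  have h1 : ((A : Matrix (Fin 2) (Fin 2) F) - 1) ^ p = 0 := by
    obtain ⟨k, hk⟩ := Nat.exists_eq_add_of_le hp.two_le
    rw [hk, pow_add, sub_one_sq hA, zero_mul]
  rw [sub_pow_char_of_commute _ (Commute.one_right _), one_pow, sub_eq_zero] at h1
  apply Subtype.ext
  rw [Matrix.SpecialLinearGroup.coe_pow, Matrix.SpecialLinearGroup.coe_one]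
  exact h1

/-- elements of trace `± 2` -/
theorem pow_char' {p : ℕ} [Fact p.Prime] [CharP F p] {A : Matrix.SpecialLinearGroup (Fin 2) F}
    (hA : tr A ^ 2 = 4) : A ^ p = 1 ∨ (-A) ^ p = 1 := by
  have h1 : (tr A - 2) * (tr A + 2) = 0 := by linear_combination hA
  rcases mul_eq_zero.1 h1 with h | h
  · left
    exact pow_char (sub_eq_zero.1 h)
  · right
    apply pow_char
    rw [tr_def, coe_neg', Matrix.neg_apply, Matrix.neg_apply]
    rw [tr_def] at h
    linear_combination -h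

/-- The trace of a matrix commuting with a nontrivial unipotent matrix. -/
theorem trace_of_commute {A B : Matrix.SpecialLinearGroup (Fin 2) F} (hB : tr B = 2) (hB1 : B ≠ 1)
    (h : (A : Matrix (Fin 2) (Fin 2) F) * B = (B : Matrix (Fin 2) (Fin 2) F) * A) :
    tr A ^ 2 = 4 := by
  have h' : A.1 * B.1 = (1 : F) • (B.1 * A.1) := by rw [one_smul]; exact h
  obtain ⟨e1, e2, e3, -⟩ := entries h'
  have dA := H611.PslTwo.det_eq A
  have dB := H611.PslTwo.det_eq B
  change B.1 0 0 + B.1 1 1 = 2 at hB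
  have key : tr A ^ 2 - 4 = (A.1 0 0 - A.1 1 1) ^ 2 + 4 * A.1 0 1 * A.1 1 0 := by
    rw [tr_def]
    linear_combination (4 : F) * dA
  rw [← sub_eq_zero, key]
  by_cases hb : B.1 0 1 = 0
  · by_cases hc : B.1 1 0 = 0
    · exfalso
      apply hB1
      have h0 : (B.1 0 0 - 1) ^ 2 = 0 := by
        have : B.1 1 1 = 2 - B.1 0 0 := by linear_combination hB
        rw [this, hb] at dB
        linear_combination -dB
      have h1 : B.1 0 0 = 1 := sub_eq_zero.1 (pow_eq_zero_iff (two_ne_zero)|>.1 h0)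
      rw [ext_iff']
      refine ⟨?_, ?_, ?_, ?_⟩
      · rw [h1]; exact one_entries.1.symm
      · rw [hb]; exact one_entries.2.1.symm
      · rw [hc]; exact one_entries.2.2.1.symm
      · rw [one_entries.2.2.2]
        linear_combination hB - h1
    · have h2 : B.1 1 0 ^ 2 * ((A.1 0 0 - A.1 1 1) ^ 2 + 4 * A.1 0 1 * A.1 1 0) = 0 := by
        have f1 : A.1 0 1 * B.1 1 0 = B.1 0 1 * A.1 1 0 := by linear_combination e1
        have f2 : B.1 1 0 * (A.1 0 0 - A.1 1 1) = A.1 1 0 * (B.1 0 0 - B.1 1 1) := by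
          linear_combination -e3
        have f3 : (B.1 0 0 - B.1 1 1) ^ 2 + 4 * B.1 0 1 * B.1 1 0 = 0 := by
          linear_combination (B.1 0 0 + B.1 1 1 + 2) * hB - 4 * dB
        linear_combination (B.1 1 0 * (A.1 0 0 - A.1 1 1) + A.1 1 0 * (B.1 0 0 - B.1 1 1)) * f2 +
          4 * A.1 1 0 * B.1 1 0 * f1 + A.1 1 0 ^ 2 * f3
      rcases mul_eq_zero.1 h2 with h3 | h3
      · exact absurd (pow_eq_zero_iff two_ne_zero |>.1 h3) hc
      · exact h3
  · have h2 : B.1 0 1 ^ 2 * ((A.1 0 0 - A.1 1 1) ^ 2 + 4 * A.1 0 1 * A.1 1 0) = 0 := by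
      have f1 : A.1 0 1 * B.1 1 0 = B.1 0 1 * A.1 1 0 := by linear_combination e1
      have f2 : B.1 0 1 * (A.1 0 0 - A.1 1 1) = A.1 0 1 * (B.1 0 0 - B.1 1 1) := by
        linear_combination e2
      have f3 : (B.1 0 0 - B.1 1 1) ^ 2 + 4 * B.1 0 1 * B.1 1 0 = 0 := by
        linear_combination (B.1 0 0 + B.1 1 1 + 2) * hB - 4 * dB
      linear_combination (B.1 0 1 * (A.1 0 0 - A.1 1 1) + A.1 0 1 * (B.1 0 0 - B.1 1 1)) * f2 -
        4 * A.1 0 1 * B.1 0 1 * f1 + A.1 0 1 ^ 2 * f3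
    rcases mul_eq_zero.1 h2 with h3 | h3
    · exact absurd (pow_eq_zero_iff two_ne_zero |>.1 h3) hb
    · exact h3

theorem mk_neg (A : Matrix.SpecialLinearGroup (Fin 2) F) :
    (QuotientGroup.mk (-A) : Matrix.ProjectiveSpecialLinearGroup (Fin 2) F) = QuotientGroup.mk A := by
  rw [QuotientGroup.eq, Cfsg.Agent.ClassicalGeometry.SLTwoTrace.mem_center_iff]
  right
  rw [inv_neg, neg_mul, inv_mul_cancel]

theorem mk_eq_one {A : Matrix.SpecialLinearGroup (Fin 2) F} :
    (QuotientGroup.mk A : Matrix.ProjectiveSpecialLinearGroup (Fin 2) F) = 1 ↔ A = 1 ∨ A = -1 := by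
  rw [QuotientGroup.eq_one_iff, Cfsg.Agent.ClassicalGeometry.SLTwoTrace.mem_center_iff]

/-- elements of order `p` of `PSL(2, q)` lift to elements of trace `2`. -/
theorem exists_lift {p : ℕ} [Fact p.Prime] (hp : p ≠ 2) [CharP F p]
    (x : Matrix.ProjectiveSpecialLinearGroup (Fin 2) F) (hx : x ^ p = 1) :
    ∃ B : Matrix.SpecialLinearGroup (Fin 2) F, QuotientGroup.mk B = x ∧ tr B = 2 := by
  have hodd : Odd p := Nat.Prime.odd_of_ne_two Fact.out hp
  obtain ⟨B, rfl⟩ := QuotientGroup.mk_surjective x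
  rw [← QuotientGroup.mk_pow, mk_eq_one] at hx
  have key : ∀ C : Matrix.SpecialLinearGroup (Fin 2) F, C ^ p = 1 → tr C = 2 := fun C hC =>
    PLocal.QuadraticNatural.trace_eq_two (p := p) C 1 (by rw [pow_one]; exact hC)
  rcases hx with h | h
  · exact ⟨B, rfl, key B h⟩
  · refine ⟨-B, mk_neg B, key _ ?_⟩
    rw [hodd.neg_pow, h, neg_neg]

/-- **The centralizer of an element of order `p`** in `PSL(2, q)` has exponent `p`. -/
theorem pow_eq_one_of_commute {p : ℕ} [Fact p.Prime] (hp : p ≠ 2) [CharP F p]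
    {x y : Matrix.ProjectiveSpecialLinearGroup (Fin 2) F} (hx : x ^ p = 1) (hx1 : x ≠ 1)
    (h : Commute x y) : y ^ p = 1 := by
  have h2 : (2 : F) ≠ 0 := by
    intro h0
    apply hp
    have h1 : (p : ℕ) ∣ 2 := by
      rw [← CharP.cast_eq_zero_iff F p 2]
      exact_mod_cast h0
    exact (Nat.prime_dvd_prime_iff_eq Fact.out Nat.prime_two).1 h1
  obtain ⟨B, rfl, hB⟩ := exists_lift hp x hx
  obtain ⟨A, rfl⟩ := QuotientGroup.mk_surjective y
  obtain ⟨r, hr, hAB⟩ := exists_scalar A B h.symm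
  have hB1 : B ≠ 1 := by
    rintro rfl
    exact hx1 rfl
  -- `r = 1`
  have hr1 : r = 1 := by
    have h3 : (A : Matrix (Fin 2) (Fin 2) F) * B * (A⁻¹ : Matrix.SpecialLinearGroup (Fin 2) F) =
        r • (B : Matrix (Fin 2) (Fin 2) F) := by
      rw [hAB, Matrix.smul_mul, Matrix.mul_assoc, ← Matrix.SpecialLinearGroup.coe_mul, mul_inv_cancel,
        Matrix.SpecialLinearGroup.coe_one, Matrix.mul_one]
    have h4 := congrArg Matrix.trace h3
    rw [Matrix.mul_assoc, Matrix.trace_mul_comm, Matrix.mul_assoc, ← Matrix.SpecialLinearGroup.coe_mul,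
      inv_mul_cancel, Matrix.SpecialLinearGroup.coe_one, Matrix.mul_one, Matrix.trace_smul] at h4
    have h5 : (B : Matrix (Fin 2) (Fin 2) F).trace = 2 := by
      rw [Matrix.trace_fin_two]; exact hB
    rw [h5, smul_eq_mul] at h4
    have h6 : (2 : F) * (r - 1) = 0 := by linear_combination -h4
    rcases mul_eq_zero.1 h6 with h7 | h7
    · exact absurd h7 h2
    · exact sub_eq_zero.1 h7
  rw [hr1, one_smul] at hAB
  rcases pow_char' (p := p) (trace_of_commute hB hB1 hAB) with h8 | h8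
  · rw [← QuotientGroup.mk_pow, h8]; rfl
  · rw [← mk_neg, ← QuotientGroup.mk_pow, h8]; rfl

end Cfsg.Agent.H89.PslCentP
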