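import Cfsg.Agent.H89.PslCentP
import Cfsg.Agent.SmallSimple.SylowInter

/-!
# Transitive groups of degree `p ^ 2` and order `p ^ 2 (p ^ 2 - 1) / 2` in which the centralizer of an element of
order `p` has exponent `p` are primitive.
-/

set_option autoImplicit false

namespace Cfsg.Agent.H89.PslPrim

open MulAction Subgroup
open scoped Pointwise

variable {M Y : Type*} [Group M]

/-- The Sylow `p`-subgroup is normal. -/
theorem sylow_normal [Finite M] {p : ℕ} [Fact p.Prime] (hp2 : p ≠ 2)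
    (hM : 2 * Nat.card M = p ^ 2 * (p ^ 2 - 1))
    (hc : ∀ x y : M, x ^ p = 1 → x ≠ 1 → Commute x y → y ^ p = 1) (P : Sylow p M) :
    Nat.card P = p ^ 2 ∧ (P : Subgroup M).Normal := by
  have hp : p.Prime := Fact.out
  have hp3 : 3 ≤ p := by
    have := hp.two_le
    omega
  have hodd : Odd p := hp.odd_of_ne_two hp2
  -- the order of `M`
  have hd : p ^ 2 ∣ Nat.card M := by
    have h1 : p ^ 2 ∣ 2 * Nat.card M := hM ▸ Dvd.intro _ rfl
    exact (Nat.Coprime.dvd_of_dvd_mul_left (Nat.Coprime.pow_left 2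
      ((Nat.coprime_primes hp Nat.prime_two).2 hp2)) h1)
  obtain ⟨k, hk⟩ := hd
  have hp2pos : 0 < p ^ 2 := by positivity
  have hk2 : 2 * k = p ^ 2 - 1 := by
    have h1 : p ^ 2 * (2 * k) = p ^ 2 * (p ^ 2 - 1) := by rw [← hM, hk]; ring
    exact Nat.eq_of_mul_eq_mul_left hp2pos h1
  have hpk : ¬ p ∣ k := by
    intro h
    have h1 : p ∣ p ^ 2 - 1 := hk2 ▸ Dvd.dvd.mul_left h 2
    have h2 : p ∣ p ^ 2 := dvd_pow_self p two_ne_zero
    have h3 : p ∣ 1 := by
      have h4 : p ^ 2 = (p ^ 2 - 1) + 1 := by omega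
      rw [h4] at h2
      exact (Nat.dvd_add_right h1).1 h2
    exact hp.one_lt.ne' (Nat.dvd_one.1 h3)
  have hPc : Nat.card P = p ^ 2 := by
    rw [P.card_eq_multiplicity, hk]
    congr 1
    have hk0 : k ≠ 0 := by
      rintro rfl
      exact hpk (dvd_zero _)
    rw [Nat.factorization_mul (by positivity) hk0, Finsupp.add_apply, hp.factorization_pow,
      Finsupp.single_eq_same, Nat.factorization_eq_zero_of_not_dvd hpk]
  refine ⟨hPc, ?_⟩
  have hidx : (P : Subgroup M).index = k := by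
    have h1 := (P : Subgroup M).card_mul_index
    rw [hPc, hk] at h1
    exact Nat.eq_of_mul_eq_mul_left hp2pos h1
  -- abelian Sylow subgroups
  have hab : ∀ R : Sylow p M, ∀ a ∈ R, ∀ b ∈ R, a * b = b * a := by
    intro R a ha b hb
    have h1 : Nat.card R = p ^ 2 := by
      rw [← hPc, P.card_eq_multiplicity, R.card_eq_multiplicity]
    have h2 := (IsPGroup.isMulCommutative_of_card_eq_prime_sq h1).is_comm.comm ⟨a, ha⟩ ⟨b, hb⟩
    exact congrArg Subtype.val h2
  -- TI
  have hTI : ∀ R : Sylow p M, ∀ x ∈ R, x ^ p = 1 → x ≠ 1 →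
      (R : Subgroup M) = Subgroup.centralizer {x} := by
    intro R x hxR hxp hx1
    have h1 : IsPGroup p (Subgroup.centralizer ({x} : Set M)) := by
      intro y
      refine ⟨1, ?_⟩
      apply Subtype.ext
      rw [pow_one]
      exact hc x y hxp hx1 ((Subgroup.mem_centralizer_singleton_iff.1 y.2).symm)
    refine (R.is_maximal' h1 ?_).symm
    intro y hy
    rw [Subgroup.mem_centralizer_singleton_iff]
    exact hab R _ hy _ hxR
  have hmod : Nat.card (Sylow p M) ≡ 1 [MOD p ^ 2] := by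
    by_contra hcon
    obtain ⟨R, hPR, hR⟩ := SmallSimple.SylowInter.exists_ne_pow_dvd_card_inf p 2 2 hcon P hPc
    rw [show 2 + 1 - 2 = 1 from rfl, pow_one] at hR
    obtain ⟨⟨x, hx⟩, hxo⟩ := exists_prime_orderOf_dvd_card' p hR
    rw [Subgroup.mem_inf] at hx
    rw [Subgroup.orderOf_mk] at hxo
    have hxp : x ^ p = 1 := by rw [← hxo]; exact pow_orderOf_eq_one x
    have hx1 : x ≠ 1 := by
      rintro rfl
      rw [orderOf_one] at hxo
      exact hp.one_lt.ne hxo
    apply hPR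
    apply Sylow.ext
    rw [hTI P x hx.1 hxp hx1, hTI R x hx.2 hxp hx1]
  have hle : Nat.card (Sylow p M) ≤ k := by
    have h1 := P.card_dvd_index
    rw [hidx] at h1
    refine Nat.le_of_dvd ?_ h1
    rcases Nat.eq_zero_or_pos k with h | h
    · exfalso
      rw [h] at hpk
      exact hpk (dvd_zero _)
    · exact h
  have hone : Nat.card (Sylow p M) = 1 := by
    have h1 : 1 < p ^ 2 := Nat.one_lt_pow two_ne_zero hp.one_lt
    have h2 : Nat.card (Sylow p M) < p ^ 2 := by omega
    have h3 := hmod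
    rw [Nat.ModEq, Nat.mod_eq_of_lt h2, Nat.mod_eq_of_lt h1] at h3
    exact h3
  have hsub : Subsingleton (Sylow p M) := by
    rw [Nat.card_eq_one_iff_unique] at hone
    exact hone.1
  exact P.normal_of_subsingleton

/-- **Primitivity.** -/
theorem primitive [Finite M] [MulAction M Y] [Finite Y] [IsPretransitive M Y] {p : ℕ} (hp : p.Prime) (hp2 : p ≠ 2)
    (hM : 2 * Nat.card M = p ^ 2 * (p ^ 2 - 1)) (hY : Nat.card Y = p ^ 2)
    (hc : ∀ x y : M, x ^ p = 1 → x ≠ 1 → Commute x y → y ^ p = 1) : IsPreprimitive M Y := by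
  classical
  have : Fact p.Prime := ⟨hp⟩
  obtain ⟨P⟩ : Nonempty (Sylow p M) := inferInstance
  obtain ⟨hPc, hPn⟩ := sylow_normal hp2 hM hc P
  have hp3 : 3 ≤ p := by
    have := hp.two_le
    omega
  have hp2pos : 0 < p ^ 2 := by positivity
  have hst : ∀ b : Y, 2 * Nat.card (stabilizer M b) = p ^ 2 - 1 := by
    intro b
    have h1 := (stabilizer M b).card_mul_index
    rw [MulAction.index_stabilizer_of_transitive, hY] at h1
    have h2 : p ^ 2 * (2 * Nat.card (stabilizer M b)) = p ^ 2 * (p ^ 2 - 1) := by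
      rw [← hM, ← h1]; ring
    exact Nat.eq_of_mul_eq_mul_left hp2pos h2
  have hpst : ∀ b : Y, ¬ p ∣ Nat.card (stabilizer M b) := by
    intro b h
    have h1 : p ∣ p ^ 2 - 1 := hst b ▸ Dvd.dvd.mul_left h 2
    have h2 : p ∣ p ^ 2 := dvd_pow_self p two_ne_zero
    have h3 : p ∣ 1 := by
      have h4 : p ^ 2 = (p ^ 2 - 1) + 1 := by omega
      rw [h4] at h2
      exact (Nat.dvd_add_right h1).1 h2
    exact hp.one_lt.ne' (Nat.dvd_one.1 h3)
  -- elements of `p`-power order in a stabilizer are trivial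
  have hst1 : ∀ (b : Y) (x : M), x ∈ stabilizer M b → (∃ n, x ^ p ^ n = 1) → x = 1 := by
    rintro b x hx ⟨n, hn⟩
    have h1 : orderOf x ∣ p ^ n := orderOf_dvd_of_pow_eq_one hn
    have h2 : orderOf x ∣ Nat.card (stabilizer M b) := by
      have := orderOf_dvd_natCard (⟨x, hx⟩ : stabilizer M b)
      rwa [Subgroup.orderOf_mk] at this
    have h3 : Nat.Coprime (p ^ n) (Nat.card (stabilizer M b)) :=
      Nat.Coprime.pow_left n ((Nat.Prime.coprime_iff_not_dvd hp).2 (hpst b))
    have h4 : orderOf x ∣ 1 := by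
      rw [← h3]
      exact Nat.dvd_gcd h1 h2
    exact orderOf_eq_one_iff.1 (Nat.dvd_one.1 h4)
  have hPp : ∀ x ∈ (P : Subgroup M), ∃ n, x ^ p ^ n = 1 := by
    intro x hx
    obtain ⟨n, hn⟩ := P.isPGroup' ⟨x, hx⟩
    exact ⟨n, congrArg Subtype.val hn⟩
  -- `P` is regular
  have hPtr : ∀ b c : Y, ∃ x ∈ (P : Subgroup M), x • b = c := by
    intro b c
    have h1 : Nat.card (orbit (P : Subgroup M) b) = p ^ 2 := by
      rw [Nat.card_coe_set_eq, ← MulAction.index_stabilizer]
      have h2 : stabilizer (P : Subgroup M) b = ⊥ := by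
        rw [eq_bot_iff]
        intro x hx
        rw [Subgroup.mem_bot]
        exact Subtype.ext (hst1 b x.1 hx (hPp _ x.2))
      rw [h2, Subgroup.index_bot]
      exact hPc
    have h2 : orbit (P : Subgroup M) b = Set.univ := by
      apply Set.eq_of_subset_of_ncard_le (Set.subset_univ _) _ (Set.toFinite _)
      rw [Set.ncard_univ, hY, ← h1]
      exact le_of_eq (Nat.card_coe_set_eq _)
    have h3 : c ∈ orbit (P : Subgroup M) b := h2 ▸ Set.mem_univ c
    obtain ⟨x, hx⟩ := h3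
    exact ⟨x, x.2, hx⟩
  refine { isTrivialBlock_of_isBlock := ?_ }
  intro B hB
  rcases B.eq_empty_or_nonempty with h0 | ⟨b, hb⟩
  · left
    rw [h0]
    exact Set.subsingleton_empty
  -- the stabilizer of the block in `P`
  let Q : Subgroup M := (P : Subgroup M) ⊓ stabilizer M B
  have hQorb : ∀ c, c ∈ B → ∃ x ∈ Q, x • b = c := by
    intro c hc'
    obtain ⟨x, hx, rfl⟩ := hPtr b c
    refine ⟨x, Subgroup.mem_inf.2 ⟨hx, ?_⟩, rfl⟩
    rw [mem_stabilizer_iff]
    by_contra hne
    have h1 := hB (g₁ := x) (g₂ := 1) (by rwa [one_smul])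
    rw [one_smul] at h1
    exact (Set.disjoint_left.1 h1 (Set.smul_mem_smul_set hb)) hc'
  have hQB : ∀ x ∈ Q, x • b ∈ B := by
    intro x hx
    have h1 := (Subgroup.mem_inf.1 hx).2
    rw [mem_stabilizer_iff] at h1
    rw [← h1]
    exact Set.smul_mem_smul_set hb
  have hQdvd : Nat.card Q ∣ p ^ 2 := by
    rw [← hPc]
    exact Subgroup.card_dvd_of_le inf_le_left
  obtain ⟨i, hi, hQi⟩ := (Nat.dvd_prime_pow hp).1 hQdvd
  interval_cases i
  · -- `Q = 1`
    left
    rw [pow_zero, Subgroup.card_eq_one] at hQi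
    intro c hc' d hd
    obtain ⟨x, hx, rfl⟩ := hQorb c hc'
    obtain ⟨y, hy, rfl⟩ := hQorb d hd
    rw [hQi, Subgroup.mem_bot] at hx hy
    rw [hx, hy]
  · -- `|Q| = p`
    exfalso
    rw [pow_one] at hQi
    have hQnt : Q ≠ ⊥ := by
      intro h
      rw [h, Subgroup.card_bot] at hQi
      exact hp.one_lt.ne hQi
    obtain ⟨⟨x, hx⟩, hx0⟩ := Subgroup.ne_bot_iff_exists_ne_one.1 hQnt
    have hx1 : x ≠ 1 := fun h => hx0 (Subtype.ext h)
    have hxp : x ^ p = 1 := by
      have h1 : orderOf (⟨x, hx⟩ : Q) ∣ p := hQi ▸ orderOf_dvd_natCard _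
      rw [Subgroup.orderOf_mk] at h1
      exact orderOf_dvd_iff_pow_eq_one.1 h1
    let f : stabilizer M b → {y : Q // y ≠ 1} := fun m =>
      ⟨⟨(m : M) * x * (m : M)⁻¹, by
        refine Subgroup.mem_inf.2 ⟨hPn.conj_mem _ (Subgroup.mem_inf.1 hx).1 _, ?_⟩
        have hmB : (m : M) ∈ stabilizer M B := hB.stabilizer_le hb m.2
        exact Subgroup.mul_mem _ (Subgroup.mul_mem _ hmB (Subgroup.mem_inf.1 hx).2) (Subgroup.inv_mem _ hmB)⟩, by
        intro h
        apply hx1
        have h1 : (m : M) * x * (m : M)⁻¹ = 1 := congrArg Subtype.val h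
        exact conj_eq_one_iff.1 h1⟩
    have hf : Function.Injective f := by
      intro m n hmn
      have h1 : (m : M) * x * (m : M)⁻¹ = (n : M) * x * (n : M)⁻¹ :=
        congrArg (fun z : {y : Q // y ≠ 1} => ((z : Q) : M)) hmn
      have h2 : Commute x ((n : M)⁻¹ * (m : M)) := by
        have h3 : (n : M)⁻¹ * ((m : M) * x * (m : M)⁻¹) * m = (n : M)⁻¹ * ((n : M) * x * (n : M)⁻¹) * m := by
          rw [h1]
        have h4 : (n : M)⁻¹ * (m : M) * x = x * ((n : M)⁻¹ * m) := by
          calc (n : M)⁻¹ * (m : M) * x = (n : M)⁻¹ * ((m : M) * x * (m : M)⁻¹) * m := by group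
            _ = (n : M)⁻¹ * ((n : M) * x * (n : M)⁻¹) * m := h3
            _ = x * ((n : M)⁻¹ * m) := by group
        exact h4.symm
      have h5 := hc _ _ hxp hx1 h2
      have h6 : (n : M)⁻¹ * (m : M) = 1 := by
        refine hst1 b _ ?_ ⟨1, by rw [pow_one]; exact h5⟩
        exact Subgroup.mul_mem _ (Subgroup.inv_mem _ n.2) m.2
      have h7 : (n : M) = m := by rwa [inv_mul_eq_one] at h6
      exact Subtype.ext h7.symm
    have h1 := Nat.card_le_card_of_injective f hf
    have h2 : Nat.card {y : Q // y ≠ 1} = p - 1 := by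
      have := Fintype.ofFinite Q
      rw [Nat.card_eq_fintype_card, Fintype.card_subtype_compl, Fintype.card_subtype_eq,
        ← Nat.card_eq_fintype_card, hQi]
    rw [h2] at h1
    have h3 := hst b
    have h4 : p ^ 2 - 1 = (p + 1) * (p - 1) := by
      have := Nat.sq_sub_sq p 1
      rwa [one_pow] at this
    rw [h4] at h3
    nlinarith [Nat.sub_add_cancel hp.one_le]
  · -- `Q = P`
    right
    have hQP : Q = (P : Subgroup M) := by
      apply Subgroup.eq_of_le_of_card_ge inf_le_left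
      rw [hQi]
      exact le_of_eq hPc
    rw [Set.eq_univ_iff_forall]
    intro c
    obtain ⟨x, hx, rfl⟩ := hPtr b c
    exact hQB x (hQP ▸ hx)

end Cfsg.Agent.H89.PslPrim
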